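import Cfsg.Agent.OD.Pre
import Cfsg.Agent.H6.LyS.p11D
set_option autoImplicit false
set_option maxRecDepth 100000
set_option Elab.async false
set_option linter.all false
namespace CfH6.LyS
open CfH6
def p11L : List CL := [⟨0, 11, [0, 26], nat_lit 0x90008000700060005000400030002000100000000, 1⟩]
def p11T : List (ℕ × ℕ) := [(0, nat_lit 0xa090807060504030201)]
def p11p0 : List (ℕ × ℕ) := [(8, 6), (3, 1), (11, 4), (7, 0), (1, 10), (13, 14), (0, 15), (6, 0), (0, 6), (4, 5), (0, 1), (0, 0)]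
theorem p11b0 : (LyM.ok p11X && Nat.beq (slp LyM.mm LyM.PM.one p11p0 ([] ++ LyM.ms) (LyM.PM.chkS LyM.mm p11X p11L p11T)) 0 &&
  Nat.beq (p11L.map CL.m).prod 11) = true := by decide +kernel
end CfH6.LyS
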