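import Cfsg.Agent.OD.Pre
import Cfsg.Agent.H6.LyS.p2D
set_option autoImplicit false
set_option maxRecDepth 100000
set_option Elab.async false
set_option linter.all false
namespace CfH6.LyS
open CfH6
def p2p0 : List (ℕ × ℕ) := [(2, 4), (1, 10), (2, 0), (1, 7), (0, 10), (13, 0), (15, 5), (5, 4), (5, 2), (4, 6), (3, 9), (7, 4), (0, 7), (5, 7), (1, 7), (4, 0), (0, 6), (0, 0), (0, 0), (0, 2), (0, 0), (0, 0), (32, 23), (0, 24), (0, 1), (30, 28), (0, 36), (32, 4), (1, 0), (21, 21), (0, 16), (9, 0), (39, 4), (0, 41), (0, 9), (10, 10), (1, 0), (15, 0), (0, 6), (0, 0), (0, 0), (0, 0), (0, 0), (0, 0), (0, 5), (14, 0), (37, 32), (25, 0), (14, 24), (14, 0), (28, 0), (0, 3), (0, 0), (0, 0), (0, 2), (0, 0), (9, 0), (24, 28), (43, 46), (37, 0), (33, 2), (32, 0), (40, 0), (0, 3), (0, 0), (0, 0), (0, 2), (0, 0), (9, 0)]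
theorem p2b0 : Nat.beq (slp LyM.mm LyM.PM.one p2p0 ([] ++ LyM.ms) (outs LyM.PM.one [(47, p2o0), (38, p2o1), (32, p2o2), (23, p2o3), (22, p2o4), (19, p2o5), (12, p2o6), (10, p2o7), (7, p2o8), (0, p2o9)])) 0 = true := by decide +kernel
end CfH6.LyS
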