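import Cfsg.Agent.OD.Pre
import Cfsg.Agent.H6.LyS.p2D
set_option autoImplicit false
set_option maxRecDepth 100000
set_option Elab.async false
set_option linter.all false
namespace CfH6.LyS
open CfH6
def p2p1 : List (ℕ × ℕ) := [(3, 3), (4, 0), (1, 5), (0, 0), (1, 10), (14, 3), (5, 3), (5, 5), (5, 6), (5, 1), (3, 7), (6, 7), (6, 4), (5, 6), (2, 6), (11, 6), (3, 4), (0, 6), (0, 14), (0, 0), (22, 20), (22, 21), (1, 0), (0, 0), (0, 0), (0, 0), (0, 0), (0, 0), (5, 0), (0, 31), (0, 0), (0, 1), (0, 0), (3, 2), (0, 0), (2, 0), (2, 5), (3, 0), (1, 5), (44, 39), (44, 40), (1, 0), (0, 0), (0, 0), (2, 0), (0, 0), (0, 51), (0, 13), (13, 0), (16, 0), (0, 0), (13, 0), (3, 0), (14, 0), (16, 0), (17, 0), (20, 0), (43, 46), (0, 43), (0, 47), (0, 45), (0, 49), (0, 46), (0, 48), (0, 7), (73, 65), (73, 66), (1, 0), (0, 0), (0, 0), (2, 0), (0, 0), (0, 80), (41, 0), (41, 0), (43, 41), (0, 41), (27, 28), (42, 0),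 (2, 0), (5, 0), (6, 0), (43, 0), (44, 0), (69, 71), (0, 73), (0, 76), (0, 76), (0, 76), (0, 74), (0, 75), (0, 7), (56, 54), (57, 0), (58, 0), (46, 0), (21, 0), (62, 0), (63, 0), (87, 95)]
theorem p2b1 : Nat.beq (slp LyM.mm LyM.PM.one p2p1 ([p2o0, p2o1, p2o2, p2o3, p2o4, p2o5, p2o6, p2o7, p2o8, p2o9] ++ LyM.ms) (outs LyM.PM.one [(96, p2o10), (90, p2o11), (89, p2o12), (87, p2o13), (86, p2o14), (85, p2o15), (84, p2o16), (80, p2o17), (64, p2o18), (62, p2o19), (61, p2o20), (51, p2o21), (35, p2o22), (25, p2o23), (23, p2o24), (8, p2o25), (1, p2o26), (0, p2o27)])) 0 = true := by decide +kernel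
end CfH6.LyS
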