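import Cfsg.Agent.OD.Pre
import Cfsg.Agent.H6.LyS.p2D
set_option autoImplicit false
set_option maxRecDepth 100000
set_option Elab.async false
set_option linter.all false
namespace CfH6.LyS
open CfH6
def p2L : List CL := [⟨0, 4, [0], nat_lit 0x2010100000000, 1⟩,
  ⟨4, 2, [0], nat_lit 0x400000000000000000000, 1⟩,
  ⟨6, 2, [2], nat_lit 0x60000000000000000000000000000, 1⟩,
  ⟨8, 2, [0], nat_lit 0x8000000000000000000000000000000000000, 1⟩,
  ⟨10, 2, [2], nat_lit 0xa00000000000000000000000000000000000000000000, 1⟩,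
  ⟨12, 2, [0], nat_lit 0xc0000000000000000000000000000000000000000000000000000, 1⟩,
  ⟨14, 2, [0], nat_lit 0xe000000000000000000000000000000000000000000000000000000000000, 1⟩]
def p2T : List (ℕ × ℕ) := [(26, nat_lit 0x2030001), (0, nat_lit 0x40503010200), (1, nat_lit 0x607050403020100), (4, nat_lit 0x8090706050403020100), (9, nat_lit 0xa0b09080706050403020100), (7, nat_lit 0xc0d0b0a09080706050403020100), (10, nat_lit 0xe0f0d0c0b0a09080706050403020100)]
def p2p2 : List (ℕ × ℕ) := [(17, 1), (0, 6), (0, 7), (0, 6), (0, 5), (0, 10), (0, 22), (20, 17), (19, 0), (22, 0), (18, 0), (20, 0), (20, 0), (27, 0), (20, 14), (0, 17), (0, 19), (0, 23), (0, 19), (0, 23), (0, 23), (0, 7), (37, 29), (35, 35), (0, 2), (1, 37), (41, 19), (4, 20), (0, 6), (36, 3), (7, 0), (6, 5), (6, 3), (6, 1), (6, 3), (0, 6), (1, 6), (1, 6), (0, 4), (0, 6), (0, 2), (0, 0), (0, 1), (6, 6), (0, 8), (0, 0), (0, 1), (0, 0), (0, 1), (0, 2), (7, 7), (0, 4), (0,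 5), (19, 10), (0, 7), (0, 12), (13, 22), (0, 14), (0, 11), (5, 25)]
theorem p2b2 : (LyM.ok p2X && Nat.beq (slp LyM.mm LyM.PM.one p2p2 ([p2o10, p2o11, p2o12, p2o13, p2o14, p2o15, p2o16, p2o17, p2o18, p2o19, p2o20, p2o21, p2o22, p2o23, p2o24, p2o25, p2o26, p2o27] ++ LyM.ms) (LyM.PM.chkS LyM.mm p2X p2L p2T)) 0 &&
  Nat.beq (p2L.map CL.m).prod 256) = true := by decide +kernel
end CfH6.LyS
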