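import Cfsg.Agent.OD.Pre
import Cfsg.Agent.H6.LyS.p2_0
import Cfsg.Agent.H6.LyS.p2_1
import Cfsg.Agent.H6.LyS.p2_2
set_option autoImplicit false
set_option maxRecDepth 100000
set_option Elab.async false
set_option linter.all false
namespace CfH6.LyS
open CfH6
theorem p2h0 : ∀ c ∈ [p2o0, p2o1, p2o2, p2o3, p2o4, p2o5, p2o6, p2o7, p2o8, p2o9], InR LyM.ok LyM.sem LyM.φ.range c := by
  have := LyM.D.slp_outs (forall_app (forall_nil) cols) _ [(47, p2o0), (38, p2o1), (32, p2o2), (23, p2o3), (22, p2o4), (19, p2o5), (12, p2o6), (10, p2o7), (7, p2o8), (0, p2o9)] p2b0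
  simp only [List.map_cons, List.map_nil] at this
  exact this
theorem ip2o0 : InR LyM.ok LyM.sem LyM.φ.range p2o0 := p2h0 _ (List.Mem.head _)
theorem ip2o1 : InR LyM.ok LyM.sem LyM.φ.range p2o1 := p2h0 _ (List.Mem.tail _ (List.Mem.head _))
theorem ip2o2 : InR LyM.ok LyM.sem LyM.φ.range p2o2 := p2h0 _ (List.Mem.tail _ (List.Mem.tail _ (List.Mem.head _)))
theorem ip2o3 : InR LyM.ok LyM.sem LyM.φ.range p2o3 := p2h0 _ (List.Mem.tail _ (List.Mem.tail _ (List.Mem.tail _ (List.Mem.head _))))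
theorem ip2o4 : InR LyM.ok LyM.sem LyM.φ.range p2o4 := p2h0 _ (List.Mem.tail _ (List.Mem.tail _ (List.Mem.tail _ (List.Mem.tail _ (List.Mem.head _)))))
theorem ip2o5 : InR LyM.ok LyM.sem LyM.φ.range p2o5 := p2h0 _ (List.Mem.tail _ (List.Mem.tail _ (List.Mem.tail _ (List.Mem.tail _ (List.Mem.tail _ (List.Mem.head _))))))
theorem ip2o6 : InR LyM.ok LyM.sem LyM.φ.range p2o6 := p2h0 _ (List.Mem.tail _ (List.Mem.tail _ (List.Mem.tail _ (List.Mem.tail _ (List.Mem.tail _ (List.Mem.tail _ (List.Mem.head _)))))))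
theorem ip2o7 : InR LyM.ok LyM.sem LyM.φ.range p2o7 := p2h0 _ (List.Mem.tail _ (List.Mem.tail _ (List.Mem.tail _ (List.Mem.tail _ (List.Mem.tail _ (List.Mem.tail _ (List.Mem.tail _ (List.Mem.head _))))))))
theorem ip2o8 : InR LyM.ok LyM.sem LyM.φ.range p2o8 := p2h0 _ (List.Mem.tail _ (List.Mem.tail _ (List.Mem.tail _ (List.Mem.tail _ (List.Mem.tail _ (List.Mem.tail _ (List.Mem.tail _ (List.Mem.tail _ (List.Mem.head _)))))))))
theorem ip2o9 : InR LyM.ok LyM.sem LyM.φ.range p2o9 := p2h0 _ (List.Mem.tail _ (List.Mem.tail _ (List.Mem.tail _ (List.Mem.tail _ (List.Mem.tail _ (List.Mem.tail _ (List.Mem.tail _ (List.Mem.tail _ (List.Mem.tail _ (List.Mem.head _))))))))))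
theorem p2h1 : ∀ c ∈ [p2o10, p2o11, p2o12, p2o13, p2o14, p2o15, p2o16, p2o17, p2o18, p2o19, p2o20, p2o21, p2o22, p2o23, p2o24, p2o25, p2o26, p2o27], InR LyM.ok LyM.sem LyM.φ.range c := by
  have := LyM.D.slp_outs (forall_app (forall_cons ip2o0 (forall_cons ip2o1 (forall_cons ip2o2 (forall_cons ip2o3 (forall_cons ip2o4 (forall_cons ip2o5 (forall_cons ip2o6 (forall_cons ip2o7 (forall_cons ip2o8 (forall_cons ip2o9 (forall_nil))))))))))) cols) _ [(96, p2o10), (90, p2o11), (89, p2o12), (87, p2o13), (86, p2o14), (85, p2o15), (84, p2o16), (80, p2o17), (64, p2o18), (62, p2o19), (61, p2o20), (51, p2o21), (35, p2o22), (25, p2o23), (23, p2o24), (8, p2o25), (1, p2o26), (0, p2o27)] p2b1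
  simp only [List.map_cons, List.map_nil] at this
  exact this
theorem ip2o10 : InR LyM.ok LyM.sem LyM.φ.range p2o10 := p2h1 _ (List.Mem.head _)
theorem ip2o11 : InR LyM.ok LyM.sem LyM.φ.range p2o11 := p2h1 _ (List.Mem.tail _ (List.Mem.head _))
theorem ip2o12 : InR LyM.ok LyM.sem LyM.φ.range p2o12 := p2h1 _ (List.Mem.tail _ (List.Mem.tail _ (List.Mem.head _)))
theorem ip2o13 : InR LyM.ok LyM.sem LyM.φ.range p2o13 := p2h1 _ (List.Mem.tail _ (List.Mem.tail _ (List.Mem.tail _ (List.Mem.head _))))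
theorem ip2o14 : InR LyM.ok LyM.sem LyM.φ.range p2o14 := p2h1 _ (List.Mem.tail _ (List.Mem.tail _ (List.Mem.tail _ (List.Mem.tail _ (List.Mem.head _)))))
theorem ip2o15 : InR LyM.ok LyM.sem LyM.φ.range p2o15 := p2h1 _ (List.Mem.tail _ (List.Mem.tail _ (List.Mem.tail _ (List.Mem.tail _ (List.Mem.tail _ (List.Mem.head _))))))
theorem ip2o16 : InR LyM.ok LyM.sem LyM.φ.range p2o16 := p2h1 _ (List.Mem.tail _ (List.Mem.tail _ (List.Mem.tail _ (List.Mem.tail _ (List.Mem.tail _ (List.Mem.tail _ (List.Mem.head _)))))))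
theorem ip2o17 : InR LyM.ok LyM.sem LyM.φ.range p2o17 := p2h1 _ (List.Mem.tail _ (List.Mem.tail _ (List.Mem.tail _ (List.Mem.tail _ (List.Mem.tail _ (List.Mem.tail _ (List.Mem.tail _ (List.Mem.head _))))))))
theorem ip2o18 : InR LyM.ok LyM.sem LyM.φ.range p2o18 := p2h1 _ (List.Mem.tail _ (List.Mem.tail _ (List.Mem.tail _ (List.Mem.tail _ (List.Mem.tail _ (List.Mem.tail _ (List.Mem.tail _ (List.Mem.tail _ (List.Mem.head _)))))))))
theorem ip2o19 : InR LyM.ok LyM.sem LyM.φ.range p2o19 := p2h1 _ (List.Mem.tail _ (List.Mem.tail _ (List.Mem.tail _ (List.Mem.tail _ (List.Mem.tail _ (List.Mem.tail _ (List.Mem.tail _ (List.Mem.tail _ (List.Mem.tail _ (List.Mem.head _))))))))))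
theorem ip2o20 : InR LyM.ok LyM.sem LyM.φ.range p2o20 := p2h1 _ (List.Mem.tail _ (List.Mem.tail _ (List.Mem.tail _ (List.Mem.tail _ (List.Mem.tail _ (List.Mem.tail _ (List.Mem.tail _ (List.Mem.tail _ (List.Mem.tail _ (List.Mem.tail _ (List.Mem.head _)))))))))))
theorem ip2o21 : InR LyM.ok LyM.sem LyM.φ.range p2o21 := p2h1 _ (List.Mem.tail _ (List.Mem.tail _ (List.Mem.tail _ (List.Mem.tail _ (List.Mem.tail _ (List.Mem.tail _ (List.Mem.tail _ (List.Mem.tail _ (List.Mem.tail _ (List.Mem.tail _ (List.Mem.tail _ (List.Mem.head _))))))))))))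
theorem ip2o22 : InR LyM.ok LyM.sem LyM.φ.range p2o22 := p2h1 _ (List.Mem.tail _ (List.Mem.tail _ (List.Mem.tail _ (List.Mem.tail _ (List.Mem.tail _ (List.Mem.tail _ (List.Mem.tail _ (List.Mem.tail _ (List.Mem.tail _ (List.Mem.tail _ (List.Mem.tail _ (List.Mem.tail _ (List.Mem.head _)))))))))))))
theorem ip2o23 : InR LyM.ok LyM.sem LyM.φ.range p2o23 := p2h1 _ (List.Mem.tail _ (List.Mem.tail _ (List.Mem.tail _ (List.Mem.tail _ (List.Mem.tail _ (List.Mem.tail _ (List.Mem.tail _ (List.Mem.tail _ (List.Mem.tail _ (List.Mem.tail _ (List.Mem.tail _ (List.Mem.tail _ (List.Mem.tail _ (List.Mem.head _))))))))))))))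
theorem ip2o24 : InR LyM.ok LyM.sem LyM.φ.range p2o24 := p2h1 _ (List.Mem.tail _ (List.Mem.tail _ (List.Mem.tail _ (List.Mem.tail _ (List.Mem.tail _ (List.Mem.tail _ (List.Mem.tail _ (List.Mem.tail _ (List.Mem.tail _ (List.Mem.tail _ (List.Mem.tail _ (List.Mem.tail _ (List.Mem.tail _ (List.Mem.tail _ (List.Mem.head _)))))))))))))))
theorem ip2o25 : InR LyM.ok LyM.sem LyM.φ.range p2o25 := p2h1 _ (List.Mem.tail _ (List.Mem.tail _ (List.Mem.tail _ (List.Mem.tail _ (List.Mem.tail _ (List.Mem.tail _ (List.Mem.tail _ (List.Mem.tail _ (List.Mem.tail _ (List.Mem.tail _ (List.Mem.tail _ (List.Mem.tail _ (List.Mem.tail _ (List.Mem.tail _ (List.Mem.tail _ (List.Mem.head _))))))))))))))))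
theorem ip2o26 : InR LyM.ok LyM.sem LyM.φ.range p2o26 := p2h1 _ (List.Mem.tail _ (List.Mem.tail _ (List.Mem.tail _ (List.Mem.tail _ (List.Mem.tail _ (List.Mem.tail _ (List.Mem.tail _ (List.Mem.tail _ (List.Mem.tail _ (List.Mem.tail _ (List.Mem.tail _ (List.Mem.tail _ (List.Mem.tail _ (List.Mem.tail _ (List.Mem.tail _ (List.Mem.tail _ (List.Mem.head _)))))))))))))))))
theorem ip2o27 : InR LyM.ok LyM.sem LyM.φ.range p2o27 := p2h1 _ (List.Mem.tail _ (List.Mem.tail _ (List.Mem.tail _ (List.Mem.tail _ (List.Mem.tail _ (List.Mem.tail _ (List.Mem.tail _ (List.Mem.tail _ (List.Mem.tail _ (List.Mem.tail _ (List.Mem.tail _ (List.Mem.tail _ (List.Mem.tail _ (List.Mem.tail _ (List.Mem.tail _ (List.Mem.tail _ (List.Mem.tail _ (List.Mem.head _))))))))))))))))))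
theorem p2 : 256 ∣ Nat.card LyM.φ.range := MP.slp_dvd LyM.D (forall_app (forall_cons ip2o10 (forall_cons ip2o11 (forall_cons ip2o12 (forall_cons ip2o13 (forall_cons ip2o14 (forall_cons ip2o15 (forall_cons ip2o16 (forall_cons ip2o17 (forall_cons ip2o18 (forall_cons ip2o19 (forall_cons ip2o20 (forall_cons ip2o21 (forall_cons ip2o22 (forall_cons ip2o23 (forall_cons ip2o24 (forall_cons ip2o25 (forall_cons ip2o26 (forall_cons ip2o27 (forall_nil))))))))))))))))))) cols) _ _ _ _ _ p2b2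
end CfH6.LyS
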