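import Cfsg.Agent.OD.Pre
import Cfsg.Agent.H6.LyS.p5D
set_option autoImplicit false
set_option maxRecDepth 100000
set_option Elab.async false
set_option linter.all false
namespace CfH6.LyS
open CfH6
def p5L : List CL := [⟨0, 25, [0, 1], nat_lit 0x1300110010000f010e000c000b000a00090108010701060006010500050104000401030003010200020101000100000000, 1⟩,
  ⟨25, 5, [0], nat_lit 0x1c001b001a001900000000000000000000000000000000000000000000000000000000000000000000000000000000000000000000000000000000, 1⟩,
  ⟨30, 5, [2], nat_lit 0x210020001f001e0000000000000000000000000000000000000000000000000000000000000000000000000000000000000000000000000000000000000000000000000000, 1⟩,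
  ⟨35, 5, [0], nat_lit 0x26002500240023000000000000000000000000000000000000000000000000000000000000000000000000000000000000000000000000000000000000000000000000000000000000000000000000, 1⟩,
  ⟨40, 5, [10], nat_lit 0x2b002a0029002800000000000000000000000000000000000000000000000000000000000000000000000000000000000000000000000000000000000000000000000000000000000000000000000000000000000000000000, 1⟩]
def p5T : List (ℕ × ℕ) := [(22, nat_lit 0x3070e140b180f1716150d091312111000050c0a0806040201), (0, nat_lit 0x191d1c1b1a1817161501080a13111014021206040c0f0e0d0b0907050300), (1, nat_lit 0x1e2221201f1d1c1b1a191817161501080a13111014021206040c0f0e0d0b0907050300), (2, nat_lit 0x23272625242221201f1e1d1c1b1a191817161501080a13111014021206040c0f0e0d0b0907050300), (7, nat_lit 0x282c2b2a2927262524232221201f1e1d1c1b1a191817161514131211100f0e0d0c0b0a09080706050403020100)]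
def p5p0 : List (ℕ × ℕ) := [(1, 4), (0, 1), (5, 6), (0, 5), (6, 8), (0, 8), (11, 7), (0, 12), (0, 8), (0, 13), (0, 11), (0, 15), (0, 12), (15, 9), (16, 12), (19, 9), (0, 1), (0, 12), (13, 3), (5, 4)]
theorem p5b0 : (LyM.ok p5X && Nat.beq (slp LyM.mm LyM.PM.one p5p0 ([] ++ LyM.ms) (LyM.PM.chkS LyM.mm p5X p5L p5T)) 0 &&
  Nat.beq (p5L.map CL.m).prod 15625) = true := by decide +kernel
end CfH6.LyS
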