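import Cfsg.Agent.OD.Pre
import Cfsg.Agent.H6.LyS.p67D
set_option autoImplicit false
set_option maxRecDepth 100000
set_option Elab.async false
set_option linter.all false
namespace CfH6.LyS
open CfH6
def p67L : List CL := [⟨0, 67, [0, 5, 29, 7], nat_lit 0x410040003f003e003d003c003b003a0039003800370036003500340033003200310030002f002e002d002c002b002a0029002800270026002500240023002200210020001f001e001d001c001b001a0019001800170016001500140013001200110010000f000e000d000c000b000a00090008000700060005000400030002000100000000, 1⟩]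
def p67T : List (ℕ × ℕ) := [(0, nat_lit 0x4241403f3e3d3c3b3a393837363534333231302f2e2d2c2b2a292827262524232221201f1e1d1c1b1a191817161514131211100f0e0d0c0b0a090807060504030201)]
def p67p0 : List (ℕ × ℕ) := [(6, 4), (9, 7), (11, 4), (7, 0), (1, 10), (13, 14), (0, 15), (6, 3), (6, 1), (4, 6), (1, 4), (3, 0), (0, 2)]
theorem p67b0 : (LyM.ok p67X && Nat.beq (slp LyM.mm LyM.PM.one p67p0 ([] ++ LyM.ms) (LyM.PM.chkS LyM.mm p67X p67L p67T)) 0 &&
  Nat.beq (p67L.map CL.m).prod 67) = true := by decide +kernel
end CfH6.LyS
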