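import Cfsg.Agent.OD.Pre
import Cfsg.Agent.H6.LyM
import Cfsg.Agent.H6.Mc
set_option autoImplicit false
set_option maxRecDepth 100000
set_option Elab.async false
set_option linter.all false
namespace CfH6.LyS
open CfH6
instance factP : Fact LyM.PM.p.Prime := ⟨by norm_num⟩
theorem cols : ∀ c ∈ LyM.ms, InR LyM.ok LyM.sem LyM.φ.range c :=
  (show [0, 1, 2, 3, 4, 5, 6, 7, 8, 9, 10].map (lget LyM.ms 0) = LyM.ms by decide +kernel) ▸ LyM.U.inR LyM.range.ge _ (by decide)
end CfH6.LyS
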