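import Cfsg.Agent.OD.Pre
import Cfsg.Agent.H6.LyS.p3D
set_option autoImplicit false
set_option maxRecDepth 100000
set_option Elab.async false
set_option linter.all false
namespace CfH6.LyS
open CfH6
def p3p0 : List (ℕ × ℕ) := [(6, 4), (3, 3), (2, 1), (5, 9), (8, 2), (11, 1), (3, 14), (2, 16), (4, 7), (4, 7), (7, 0), (3, 7), (4, 7), (6, 7), (7, 5), (7, 1), (3, 2), (0, 4), (0, 0), (0, 0), (0, 2), (0, 0), (0, 4), (0, 0), (14, 15), (0, 9), (0, 14), (0, 14), (0, 15), (0, 15), (0, 14), (38, 34), (0, 39), (38, 40), (0, 35), (43, 0), (3, 0), (40, 40), (0, 43), (49, 0), (3, 0), (2, 1), (10, 2), (9, 11), (6, 5), (1, 0), (5, 0), (4, 0), (6, 0), (7, 0), (13, 0), (10, 0), (37, 38), (0, 42), (0, 40), (0, 42), (0, 45), (0, 44), (0, 45), (0, 7)]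
theorem p3b0 : Nat.beq (slp LyM.mm LyM.PM.one p3p0 ([] ++ LyM.ms) (outs LyM.PM.one [(51, p3o0), (50, p3o1), (49, p3o2), (48, p3o3), (47, p3o4), (46, p3o5), (45, p3o6), (44, p3o7), (37, p3o8), (36, p3o9), (29, p3o10), (25, p3o11), (24, p3o12), (23, p3o13), (19, p3o14), (18, p3o15), (17, p3o16), (16, p3o17), (15, p3o18), (0, p3o19)])) 0 = true := by decide +kernel
end CfH6.LyS
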