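import Cfsg.Agent.OD.Pre
import Cfsg.Agent.H6.LyS.p3D
set_option autoImplicit false
set_option maxRecDepth 100000
set_option Elab.async false
set_option linter.all false
namespace CfH6.LyS
open CfH6
def p3p1 : List (ℕ × ℕ) := [(6, 6), (0, 2), (0, 7), (0, 3), (0, 9), (0, 6), (0, 8), (25, 18), (25, 20), (0, 0), (28, 0), (24, 0), (29, 0), (26, 0), (32, 0), (7, 0), (22, 19), (0, 21), (0, 23), (0, 23), (0, 20), (0, 23), (0, 28), (0, 7), (24, 25), (0, 32), (0, 26), (0, 32), (0, 31), (0, 30), (0, 35), (49, 48), (46, 0), (50, 0), (47, 0), (51, 0), (54, 0), (50, 0), (45, 39), (0, 40), (0, 41), (0, 42), (0, 49), (0, 44), (0, 49), (0, 7), (49, 47), (0, 53), (0, 53), (0, 54), (0, 51), (0, 57), (0, 56), (71, 69), (45, 0), (68, 0), (69, 0), (75, 0), (49, 0), (74, 0), (64, 66), (0, 67), (0, 64), (0, 65), (0, 64), (0, 66), (0, 70), (0, 7)]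
theorem p3b1 : Nat.beq (slp LyM.mm LyM.PM.one p3p1 ([p3o0, p3o1, p3o2, p3o3, p3o4, p3o5, p3o6, p3o7, p3o8, p3o9, p3o10, p3o11, p3o12, p3o13, p3o14, p3o15, p3o16, p3o17, p3o18, p3o19] ++ LyM.ms) (outs LyM.PM.one [(61, p3o20), (60, p3o21), (59, p3o22), (44, p3o23), (37, p3o24), (22, p3o25), (15, p3o26), (0, p3o27)])) 0 = true := by decide +kernel
end CfH6.LyS
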