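import Cfsg.Agent.OD.Pre
import Cfsg.Agent.H6.LyS.p3D
set_option autoImplicit false
set_option maxRecDepth 100000
set_option Elab.async false
set_option linter.all false
namespace CfH6.LyS
open CfH6
def p3p2 : List (ℕ × ℕ) := [(0, 9), (10, 16), (11, 2), (2, 12), (17, 3), (4, 20), (23, 1), (7, 6), (1, 7), (3, 7), (6, 7), (1, 7), (2, 7), (1, 7), (1, 7), (0, 7), (3, 7), (5, 5), (0, 0), (0, 7), (0, 0), (24, 33), (33, 0), (26, 0), (29, 0), (36, 0), (31, 0), (32, 0), (30, 0), (0, 30), (36, 42), (36, 0), (35, 0), (38, 0), (41, 0), (46, 0), (48, 0), (47, 0), (8, 0), (51, 44), (52, 0), (52, 0), (53, 0), (50, 0), (52, 0), (50, 0), (62, 0), (8, 0), (18, 0), (57, 53), (58, 0), (59, 0), (60, 0), (57, 0), (62, 0), (58, 0), (70, 0)]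
theorem p3b2 : Nat.beq (slp LyM.mm LyM.PM.one p3p2 ([p3o8, p3o9, p3o10, p3o13, p3o14, p3o15, p3o16, p3o17, p3o18, p3o19, p3o20, p3o21, p3o22, p3o23, p3o24, p3o25, p3o26, p3o27] ++ LyM.ms) (outs LyM.PM.one [(47, p3o28), (46, p3o29), (45, p3o30), (44, p3o31), (43, p3o32), (42, p3o33), (41, p3o34), (40, p3o35), (36, p3o36), (28, p3o37), (27, p3o38), (18, p3o39), (9, p3o40), (8, p3o41), (0, p3o42)])) 0 = true := by decide +kernel
end CfH6.LyS
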