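import Cfsg.Agent.OD.Pre
import Cfsg.Agent.H6.LyS.p3D
set_option autoImplicit false
set_option maxRecDepth 100000
set_option Elab.async false
set_option linter.all false
namespace CfH6.LyS
open CfH6
def p3p3 : List (ℕ × ℕ) := [(15, 10), (16, 12), (1, 0), (15, 0), (18, 0), (15, 16), (0, 3), (7, 17), (0, 2), (20, 9), (23, 6), (1, 0), (8, 0), (8, 0), (2, 0), (6, 0), (9, 0), (13, 0), (13, 0), (26, 27), (0, 24), (0, 24), (0, 28), (0, 24), (0, 25), (0, 29), (0, 7), (30, 33), (26, 21), (18, 22), (21, 0), (22, 0), (28, 0), (29, 0), (5, 0), (32, 0), (8, 42), (0, 41), (0, 45), (0, 44), (0, 41), (0, 46), (0, 6), (38, 32), (40, 0), (42, 0), (41, 0), (38, 0), (44, 0), (42, 0), (12, 53), (0, 57), (0, 53), (0, 58), (0, 4), (46, 48), (44, 0), (54, 0), (47, 0), (47, 0), (57, 0), (57, 0), (64, 69), (0, 69), (0, 71), (0, 67), (0, 74), (0, 68), (0, 69), (0, 7)]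
theorem p3b3 : Nat.beq (slp LyM.mm LyM.PM.one p3p3 ([p3o9, p3o28, p3o29, p3o30, p3o31, p3o32, p3o33, p3o34, p3o35, p3o36, p3o37, p3o38, p3o39, p3o40, p3o41, p3o42] ++ LyM.ms) (outs LyM.PM.one [(43, p3o43), (27, p3o44), (15, p3o45), (0, p3o46)])) 0 = true := by decide +kernel
end CfH6.LyS
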