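import Cfsg.Agent.OD.Pre
import Cfsg.Agent.H6.LyS.p3D
set_option autoImplicit false
set_option maxRecDepth 100000
set_option Elab.async false
set_option linter.all false
namespace CfH6.LyS
open CfH6
def p3L : List CL := [⟨0, 3, [0], nat_lit 0x100000000, 1⟩,
  ⟨3, 27, [0, 45, 1], nat_lit 0x130017001600120218010d000c010b000b000d01080008000a00090107020601060105000502090006010400040203010300030000000000000000, 3⟩,
  ⟨30, 3, [0], nat_lit 0x1f001e0000000000000000000000000000000000000000000000000000000000000000000000000000000000000000000000000000000000000000000000000000, 1⟩,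
  ⟨33, 3, [2], nat_lit 0x2200210000000000000000000000000000000000000000000000000000000000000000000000000000000000000000000000000000000000000000000000000000000000000000, 1⟩,
  ⟨36, 3, [5], nat_lit 0x2500240000000000000000000000000000000000000000000000000000000000000000000000000000000000000000000000000000000000000000000000000000000000000000000000000000, 1⟩]
def p3T : List (ℕ × ℕ) := [(25, nat_lit 0x201), (0, nat_lit 0x180c190816131c1b050f1d1a0e060d0a14171511101203090b0704020100), (4, nat_lit 0x111007190e060a091d17041c15121b1a180316140b130f0d0c0805020100), (16, nat_lit 0x1b1d1c050c1913170f081615071112031a1814040a0b100e0d0906020100), (1, nat_lit 0x1e201f1d1c1b05180c13171214160f0711150e1a190b09040810060d0a03020100), (20, nat_lit 0x212322201f1e1d1c1b1a191817161514131211100f0e0d0c0b0a09080706050403020100), (6, nat_lit 0x242625232221201f1e1c1b1d1a191813171208160f1007150e0d0c14040a0b1106050903020100)]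
def p3p4 : List (ℕ × ℕ) := [(3, 3), (1, 0), (4, 4), (4, 2), (4, 6), (8, 9), (10, 2), (7, 0), (7, 5), (6, 7), (5, 7), (2, 7), (4, 7), (0, 7), (0, 7), (3, 7), (7, 2), (7, 3), (0, 3), (0, 7), (0, 0), (6, 6), (0, 5), (0, 8), (0, 0), (0, 0), (13, 11), (0, 0), (0, 0), (0, 2), (19, 18), (0, 16), (0, 16), (0, 0), (21, 20), (25, 24), (0, 21), (0, 0), (17, 4), (0, 1), (19, 19), (0, 7), (0, 7), (0, 8), (0, 28), (4, 10)]
theorem p3b4 : (LyM.ok p3X && Nat.beq (slp LyM.mm LyM.PM.one p3p4 ([p3o36, p3o43, p3o44, p3o45, p3o46] ++ LyM.ms) (LyM.PM.chkS LyM.mm p3X p3L p3T)) 0 &&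
  Nat.beq (p3L.map CL.m).prod 2187) = true := by decide +kernel
end CfH6.LyS
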